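import Mathlib
import Cfsg.Agent.Char.Orthogonality
import Cfsg.Agent.Char.Kernel
import Cfsg.Agent.Char.Linear
import Cfsg.Agent.CharExt.Inertia
import Cfsg.Agent.CharGraph.PDegreeBasic
import Cfsg.Agent.SeenOnce.Column
import Cfsg.Agent.S0191

/-!
# Groups all of whose vanishing elements are `p`-elements: auxiliary facts
-/

set_option autoImplicit false
set_option linter.style.haveILetI false

namespace Cfsg.Agent.VanishPPower

open scoped ComplexConjugate Pointwise

universe u

/-- In a finite `p`-group, only central elements are zeros of no irreducible character. -/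
theorem mem_center_of_never_zero {p : ℕ} [Fact p.Prime] {P : Type u} [Group P] [Finite P]
    (hP : IsPGroup p P) (x : P) (hx : ∀ χ : Cfsg.IrrCharacter P, (χ : P → ℂ) x ≠ 0) :
    x ∈ Subgroup.center P := by
  suffices key : ∀ (n : ℕ) (S : Type u) [Group S] [Finite S], Nat.card S ≤ n → IsPGroup p S →
      ∀ s : S, (∀ χ : Cfsg.IrrCharacter S, (χ : S → ℂ) s ≠ 0) → s ∈ Subgroup.center S from
    key _ P le_rfl hP x hx
  intro n
  induction n with
  | zero => intro S _ _ hc; exact absurd hc (Nat.not_le.2 Nat.card_pos)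
  | succ n ih =>
    intro S _ _ hc hS s hs
    rcases subsingleton_or_nontrivial S with hsub | hnt
    · rw [Subsingleton.elim s 1]
      exact one_mem _
    haveI := hS.center_nontrivial
    have hlt : Nat.card (S ⧸ Subgroup.center S) < Nat.card S := by
      rw [← Subgroup.index_eq_card]
      have h1 : 1 < Nat.card (Subgroup.center S) := Finite.one_lt_card
      have h2 := (Subgroup.center S).index_mul_card
      have h3 : 0 < (Subgroup.center S).index :=
        Nat.pos_of_ne_zero Subgroup.index_ne_zero_of_finite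
      nlinarith
    have hbar : (s : S ⧸ Subgroup.center S) ∈ Subgroup.center (S ⧸ Subgroup.center S) :=
      ih _ (by omega) (hS.to_quotient _) _ fun χ => hs
        ⟨fun y => (χ : S ⧸ Subgroup.center S → ℂ) (QuotientGroup.mk' _ y),
          CharInd.irr_comp_surjective _ (QuotientGroup.mk'_surjective _) χ.2⟩
    rw [Subgroup.mem_center_iff]
    intro y
    set c := y * s * y⁻¹ * s⁻¹ with hcdef
    have hcZ : c ∈ Subgroup.center S := by
      rw [← QuotientGroup.eq_one_iff, hcdef]
      simp only [QuotientGroup.mk_mul, QuotientGroup.mk_inv,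
        Subgroup.mem_center_iff.1 hbar (y : S ⧸ Subgroup.center S), mul_inv_cancel_right,
        mul_inv_cancel]
    by_contra hne
    have hc1 : c ≠ 1 := fun h => hne (by
      rw [hcdef, mul_inv_eq_one, mul_inv_eq_iff_eq_mul] at h
      exact h)
    obtain ⟨χ, hχ⟩ := Char.exists_irr_ne_degree hc1
    obtain ⟨ω, -, hω1, hω⟩ := Char.irr_mul_center χ.2 hcZ
    have h1 := hω s
    rw [hcdef, inv_mul_cancel_right, Char.irr_isClassFunction χ.2 s y] at h1
    have h2 : ω = 1 := (mul_eq_right₀ (hs χ)).1 h1.symm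
    rw [h2, one_mul] at hω1
    exact hχ hω1

/-- A subgroup meeting every conjugacy class of a finite group is the whole group. -/
theorem eq_top_of_conj_cover {N : Type u} [Group N] [Finite N] (C : Subgroup N)
    (h : ∀ a : N, ∃ b : N, b * a * b⁻¹ ∈ C) : C = ⊤ := by
  classical
  letI := Fintype.ofFinite N
  letI := Fintype.ofFinite (N ⧸ C)
  letI := Fintype.ofFinite (Quotient (MulAction.orbitRel N (N ⧸ C)))
  have hB := MulAction.sum_card_fixedBy_eq_card_orbits_mul_card_group N (N ⧸ C)
  have horb : Fintype.card (Quotient (MulAction.orbitRel N (N ⧸ C))) = 1 := by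
    haveI : Subsingleton (Quotient (MulAction.orbitRel N (N ⧸ C))) := by
      refine ⟨fun a b => ?_⟩
      induction a using Quotient.inductionOn' with
      | _ a =>
        induction b using Quotient.inductionOn' with
        | _ b => exact Quotient.sound' (MulAction.exists_smul_eq N b a)
    haveI : Nonempty (Quotient (MulAction.orbitRel N (N ⧸ C))) :=
      ⟨Quotient.mk'' ((1 : N) : N ⧸ C)⟩
    exact Fintype.card_eq_one_iff_nonempty_unique.2 ⟨uniqueOfSubsingleton (Classical.arbitrary _)⟩
  rw [horb, one_mul] at hB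
  have hge : ∀ a : N, 1 ≤ Fintype.card (MulAction.fixedBy (N ⧸ C) a) := by
    intro a
    obtain ⟨b, hb⟩ := h a
    refine Fintype.card_pos_iff.2 ⟨⟨((b⁻¹ : N) : N ⧸ C), ?_⟩⟩
    show ((a * b⁻¹ : N) : N ⧸ C) = ((b⁻¹ : N) : N ⧸ C)
    refine QuotientGroup.eq.2 ?_
    have : (a * b⁻¹)⁻¹ * b⁻¹ = (b * a * b⁻¹)⁻¹ := by group
    rw [this]
    exact C.inv_mem hb
  have h1 : Fintype.card (MulAction.fixedBy (N ⧸ C) (1 : N)) = 1 := by
    by_contra hne
    have hgt : ∑ _a : N, 1 < ∑ a : N, Fintype.card (MulAction.fixedBy (N ⧸ C) a) :=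
      Finset.sum_lt_sum (fun a _ => hge a)
        ⟨1, Finset.mem_univ _, lt_of_le_of_ne (hge 1) (Ne.symm hne)⟩
    rw [hB] at hgt
    simp at hgt
  rw [← Subgroup.index_eq_one, Subgroup.index_eq_card, ← h1, ← Nat.card_eq_fintype_card]
  refine (Nat.card_congr (Equiv.subtypeUnivEquiv fun q => ?_)).symm
  exact one_smul N q

variable {G : Type u} [Group G]

/-- A normal complement to a Sylow subgroup, seen through the retraction onto the subgroup. -/
theorem exists_retraction [Finite G] {p : ℕ} [Fact p.Prime] (N : Subgroup G) [N.Normal]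
    (hcop : (Nat.card N).Coprime p) {k : ℕ} (hk : N.index = p ^ k) (P : Sylow p G) :
    ∃ π : G →* (P : Subgroup G), π.ker = N ∧ ∀ y : (P : Subgroup G), π (y : G) = y := by
  have hp : p.Prime := Fact.out
  have hN0 : Nat.card N ≠ 0 := Nat.card_pos.ne'
  have hnd : ¬ p ∣ Nat.card N := (Nat.Prime.coprime_iff_not_dvd hp).1 hcop.symm
  have hfac : (Nat.card G).factorization p = k := by
    rw [← N.card_mul_index, hk, Nat.factorization_mul hN0 (pow_ne_zero _ hp.ne_zero),
      Finsupp.add_apply, Nat.factorization_eq_zero_of_not_dvd hnd, hp.factorization_pow,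
      Finsupp.single_eq_same, zero_add]
  have hP : Nat.card (P : Subgroup G) = p ^ k := by
    rw [P.card_eq_multiplicity, hfac]
  have hc : Subgroup.IsComplement' N (P : Subgroup G) :=
    Subgroup.isComplement'_of_coprime (by rw [hP, ← hk, N.card_mul_index])
      (by rw [hP]; exact hcop.pow_right k)
  let f : (P : Subgroup G) →* G ⧸ N := (QuotientGroup.mk' N).comp (P : Subgroup G).subtype
  have hf : Function.Bijective f := by
    refine ⟨(injective_iff_map_eq_one f).2 fun y hy => ?_, fun q => ?_⟩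
    · have h1 : (y : G) ∈ N ⊓ (P : Subgroup G) :=
        ⟨(QuotientGroup.eq_one_iff (y : G)).1 hy, y.2⟩
      rw [hc.disjoint.eq_bot] at h1
      exact Subtype.ext h1
    · obtain ⟨g, rfl⟩ := QuotientGroup.mk'_surjective N q
      obtain ⟨⟨a, y⟩, rfl⟩ := hc.2 g
      refine ⟨⟨(y : G), y.2⟩, ?_⟩
      show QuotientGroup.mk' N (y : G) = QuotientGroup.mk' N ((a : G) * (y : G))
      rw [map_mul, show QuotientGroup.mk' N (a : G) = 1 from (QuotientGroup.eq_one_iff _).2 a.2,
        one_mul]
  let e := MulEquiv.ofBijective f hf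
  refine ⟨e.symm.toMonoidHom.comp (QuotientGroup.mk' N), ?_, fun y => e.symm_apply_apply y⟩
  ext g
  rw [MonoidHom.mem_ker, MonoidHom.comp_apply, MulEquiv.coe_toMonoidHom,
    MulEquiv.map_eq_one_iff]
  exact QuotientGroup.eq_one_iff g

/-- A `p`-element commuting with a non-trivial element of the normal `p`-complement is central
in the Sylow subgroup and centralises the complement, when mixed elements are never zeros. -/
theorem centralizes_of_commute [Finite G] {p : ℕ} [Fact p.Prime] (N : Subgroup G) [N.Normal]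
    (hcop : (Nat.card N).Coprime p) (P : Sylow p G) (π : G →* (P : Subgroup G))
    (hker : π.ker = N) (hπ : ∀ y : (P : Subgroup G), π (y : G) = y)
    (hvan : ∀ g : G, (∀ m : ℕ, orderOf g ≠ p ^ m) →
      ∀ χ : Cfsg.IrrCharacter G, (χ : G → ℂ) g ≠ 0)
    (x : (P : Subgroup G)) (n : G) (hn : n ∈ N) (hn1 : n ≠ 1) (hcomm : Commute n (x : G)) :
    x ∈ Subgroup.center (P : Subgroup G) ∧ ∀ a ∈ N, Commute a (x : G) := by
  classical
  letI := Fintype.ofFinite G
  letI := Fintype.ofFinite N
  have hp : p.Prime := Fact.out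
  have hπn : ∀ a ∈ N, π a = 1 := fun a ha => by rwa [← hker, MonoidHom.mem_ker] at ha
  have hπs : Function.Surjective π := fun y => ⟨y, hπ y⟩
  -- `n * x` is not a `p`-element
  have hmix : ∀ m : ℕ, orderOf (n * (x : G)) ≠ p ^ m := by
    intro m hm
    have h1 : n ^ p ^ m * (x : G) ^ p ^ m = 1 := by
      rw [← hcomm.mul_pow, ← hm, pow_orderOf_eq_one]
    have h2 : π ((x : G) ^ p ^ m) = 1 := by
      have h := congrArg π h1
      rwa [map_mul, hπn _ (pow_mem hn _), one_mul, map_one] at h
    rw [map_pow, hπ] at h2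
    rw [show (x : G) ^ p ^ m = ((x ^ p ^ m : (P : Subgroup G)) : G) from (by simp), h2,
      OneMemClass.coe_one, mul_one] at h1
    have h3 : orderOf n ∣ Nat.card N := Subgroup.orderOf_dvd_natCard _ hn
    exact hn1 (orderOf_eq_one_iff.1 (Nat.eq_one_of_dvd_coprimes (hcop.pow_right m) h3
      (orderOf_dvd_of_pow_eq_one h1)))
  have hnx := hvan _ hmix
  have hxc : x ∈ Subgroup.center (P : Subgroup G) := by
    refine mem_center_of_never_zero P.isPGroup' x fun χ => ?_
    have h := hnx ⟨fun g => (χ : ↥(P : Subgroup G) → ℂ) (π g),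
      CharInd.irr_comp_surjective π hπs χ.2⟩
    simpa [map_mul, hπn n hn, hπ] using h
  refine ⟨hxc, ?_⟩
  -- modulo `N`, `x` is central
  have hmod : ∀ y : G, y⁻¹ * (x : G) * y * (x : G)⁻¹ ∈ N := by
    intro y
    rw [← hker, MonoidHom.mem_ker]
    simp only [map_mul, map_inv, hπ]
    rw [mul_assoc (π y)⁻¹ x (π y), ← Subgroup.mem_center_iff.1 hxc (π y)]
    simp
  -- `x` fixes every character of `N`
  have hfix : ∀ θ : Cfsg.IrrCharacter N, (x : G) ∈ CharExt.inertia N (θ : N → ℂ) := by
    intro θ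
    by_contra hxT
    obtain ⟨χ, hχ⟩ := CharGraph.exists_irr_over N θ
    set T := CharExt.inertia N (θ : N → ℂ)
    letI := Fintype.ofFinite T
    have hNT : N ≤ T := CharExt.le_inertia N (Char.irr_isClassFunction θ.2)
    obtain ⟨ψ, -, hind, -⟩ := Cfsg.Agent.S0854.result N θ θ.2 T
      (fun g => ⟨fun h m => congrFun h m, fun h => funext h⟩) hNT χ χ.2
      (by convert hχ)
    refine hnx χ ?_
    rw [← hind]
    refine CharInd.indFun_eq_zero_of_forall T ψ fun y hy => hxT ?_
    have h1 : y⁻¹ * n * y * (y⁻¹ * (x : G) * y * (x : G)⁻¹) ∈ N :=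
      N.mul_mem (by simpa using Subgroup.Normal.conj_mem inferInstance n hn y⁻¹) (hmod y)
    have h2 := T.mul_mem (T.inv_mem (hNT h1)) hy
    simpa [mul_assoc] using h2
  -- hence `x` fixes every class of `N`
  have hclass : ∀ a : N, ∃ c : N, Commute (a : G) ((c : G) * (x : G)) := by
    intro a
    let a' : N := ⟨(x : G) * a * (x : G)⁻¹, Subgroup.Normal.conj_mem inferInstance _ a.2 _⟩
    have hval : ∀ θ : Cfsg.IrrCharacter N, (θ : N → ℂ) a' = (θ : N → ℂ) a := fun θ =>
      congrFun (CharExt.mem_inertia.1 (hfix θ)) a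
    have h1 := Char.sum_irr_mul_conj (G := N) a' a
    simp only [hval] at h1
    rw [Char.sum_irr_mul_conj (G := N) a a, if_pos (IsConj.refl a)] at h1
    have hconj : IsConj a' a := by
      by_contra hne
      rw [if_neg hne] at h1
      exact Nat.cast_ne_zero.2 Nat.card_pos.ne' h1
    obtain ⟨c, hc⟩ := isConj_iff.1 hconj
    refine ⟨c, ?_⟩
    have hc' : (c : G) * ((x : G) * a * (x : G)⁻¹) * (c : G)⁻¹ = a := congrArg Subtype.val hc
    show (a : G) * ((c : G) * x) = (c : G) * x * a
    conv_lhs => rw [← hc']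
    group
  -- and conjugates every element of `N` into its centraliser
  set C : Subgroup N := (Subgroup.centralizer ({(x : G)} : Set G)).subgroupOf N with hC
  have hcov : ∀ a : N, ∃ b : N, b * a * b⁻¹ ∈ C := by
    intro a
    obtain ⟨c, hc⟩ := hclass a
    have hxord : Nat.Coprime (orderOf x) (Nat.card N) := by
      obtain ⟨r, hr⟩ := IsPGroup.iff_orderOf.1 P.isPGroup' x
      rw [hr]
      exact Nat.Coprime.pow_left r hcop.symm
    obtain ⟨e, he1, he2⟩ := Nat.chineseRemainder hxord 1 0
    set w : G := (c : G) * x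
    set u : G := w ^ e
    have hπw : π w = x := by rw [map_mul, hπn _ c.2, one_mul, hπ]
    have hπu : π u = x := by
      rw [map_pow, hπw, pow_eq_pow_iff_modEq.2 he1, pow_one]
    have hu : u ^ orderOf x = 1 := by
      have h1 : w ^ orderOf x ∈ N := by
        rw [← hker, MonoidHom.mem_ker, map_pow, hπw, pow_orderOf_eq_one]
      obtain ⟨t, ht⟩ := Nat.modEq_zero_iff_dvd.1 he2
      have h2 : (w ^ orderOf x) ^ Nat.card N = 1 :=
        congrArg Subtype.val (pow_card_eq_one' (x := (⟨_, h1⟩ : N)))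
      rw [← pow_mul, mul_comm e, pow_mul, ht, pow_mul, h2, one_pow]
    have huP : IsPGroup p (Subgroup.zpowers u) := by
      obtain ⟨r, hr⟩ := IsPGroup.iff_orderOf.1 P.isPGroup' x
      obtain ⟨s, -, hs⟩ := (Nat.dvd_prime_pow hp).1 (hr ▸ orderOf_dvd_of_pow_eq_one hu)
      exact IsPGroup.of_card (n := s) (by rw [Nat.card_zpowers, hs])
    obtain ⟨R, hR⟩ := huP.exists_le_sylow
    obtain ⟨g, hg⟩ := MulAction.exists_smul_eq G R P
    have hguP : g * u * g⁻¹ ∈ (P : Subgroup G) := by
      rw [← hg]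
      exact ⟨u, hR (Subgroup.mem_zpowers u), rfl⟩
    -- `g = y * b` with `y` in `P` and `b` in `N`
    set b : G := ((π g : (P : Subgroup G)) : G)⁻¹ * g
    have hb : b ∈ N := by
      rw [← hker, MonoidHom.mem_ker, map_mul, map_inv, hπ, inv_mul_cancel]
    have hbu : b * u * b⁻¹ ∈ (P : Subgroup G) := by
      have : b * u * b⁻¹ =
          ((π g : (P : Subgroup G)) : G)⁻¹ * (g * u * g⁻¹) * ((π g : (P : Subgroup G)) : G) := by
        simp [b, mul_assoc]
      rw [this]
      exact mul_mem (mul_mem (inv_mem (π g).2) hguP) (π g).2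
    have hbx : b * u * b⁻¹ = (x : G) := by
      have h1 := hπ ⟨_, hbu⟩
      simp only [map_mul, map_inv, hπn b hb, one_mul, inv_one, mul_one, hπu] at h1
      exact (congrArg Subtype.val h1).symm
    refine ⟨⟨b, hb⟩, Subgroup.mem_subgroupOf.2 (Subgroup.mem_centralizer_singleton_iff.2 ?_)⟩
    have hau : Commute (a : G) u := hc.pow_right e
    show b * (a : G) * b⁻¹ * x = x * (b * (a : G) * b⁻¹)
    rw [← hbx]
    calc b * (a : G) * b⁻¹ * (b * u * b⁻¹) = b * ((a : G) * u) * b⁻¹ := by group
      _ = b * (u * (a : G)) * b⁻¹ := by rw [hau.eq]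
      _ = b * u * b⁻¹ * (b * (a : G) * b⁻¹) := by group
  intro a ha
  have h1 : (⟨a, ha⟩ : N) ∈ C := eq_top_of_conj_cover C hcov ▸ Subgroup.mem_top _
  exact Subgroup.mem_centralizer_singleton_iff.1 (Subgroup.mem_subgroupOf.1 h1)

end Cfsg.Agent.VanishPPower
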